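import Cfsg.Agent.H279.Dl.Two
import Cfsg.Agent.S0775

/-!
# The number of totally isotropic planes (helper279, task DL-SP2 of S4769)

`card_om_two` : `3 * |Om 2| = (2^(2n) - 1) (2^(2n-2) - 1)`.
-/

set_option autoImplicit false

open scoped ComplexConjugate
open Cfsg

namespace Cfsg.Agent.H279.Dl

open Cfsg.Agent.Characters Module Cfsg.Agent.H53.HC Cfsg.Agent.H477.HC Cfsg.Agent.H749.Two Cfsg.Agent.H674.Dl

universe u v w

section

variable {K : Type u} [Field K]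

open Matrix in
theorem card_stab {n : ℕ} (W : Submodule K (Fin n ⊕ Fin n → K)) :
    Nat.card (stabW (CForm.spF K n).iso.subtype W) =
      Nat.card (stabilizing (spToMat n K) (W : Set (Fin n ⊕ Fin n → K))) := by
  have key : ∀ A : Matrix.symplecticGroup (Fin n) K, A ∈ stabilizing (spToMat n K) (W : Set (Fin n ⊕ Fin n → K)) ↔
      isoSp n K A ∈ stabW (CForm.spF K n).iso.subtype W := by
    intro A
    have h1 : ∀ v, ((isoSp n K A : (CForm.spF K n).iso) : (Fin n ⊕ Fin n → K) ≃ₗ[K] (Fin n ⊕ Fin n → K)) v =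
        (A : Matrix (Fin n ⊕ Fin n) (Fin n ⊕ Fin n) K) *ᵥ v := fun v => isoSp_apply A v
    constructor
    · intro h
      exact map_eq_of_le (CForm.spF K n).iso.subtype fun w hw => by
        change ((isoSp n K A : (CForm.spF K n).iso) : (Fin n ⊕ Fin n → K) ≃ₗ[K] (Fin n ⊕ Fin n → K)) w ∈ W
        rw [h1]
        exact (h w).1 hw
    · intro h v
      have h2 : W.map ((CForm.spF K n).iso.subtype (isoSp n K A) : (Fin n ⊕ Fin n → K) →ₗ[K] _) = W := h
      have h3 : spToMat n K A *ᵥ v =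
          ((isoSp n K A : (CForm.spF K n).iso) : (Fin n ⊕ Fin n → K) ≃ₗ[K] (Fin n ⊕ Fin n → K)) v := (h1 v).symm
      change v ∈ W ↔ spToMat n K A *ᵥ v ∈ W
      rw [h3]
      constructor
      · intro hv
        rw [← h2]
        exact ⟨v, hv, rfl⟩
      · intro hv
        rw [← h2] at hv
        obtain ⟨w, hw, hwv⟩ := hv
        have := ((isoSp n K A : (CForm.spF K n).iso) : (Fin n ⊕ Fin n → K) ≃ₗ[K] (Fin n ⊕ Fin n → K)).injective hwv
        rwa [← this]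
  refine (Nat.card_congr ((isoSp n K).toEquiv.subtypeEquiv fun A => key A)).symm

theorem card_om_two (h2 : Nat.card K = 2) {n : ℕ} (hn : 2 ≤ n) :
    3 * Nat.card ((CForm.spF K n).Om 2) = (2 ^ (2 * n - 2) - 1) * (2 ^ (2 * n) - 1) := by
  have := finite_of_two h2
  let _ := Fintype.ofFinite K
  obtain ⟨e, f, j, hf⟩ := CForm.frm_sp (K := K) (k := 2) (n := n - 2) (m := n) (by omega)
  have hW₀ := frm_mem hf
  set W₀ := Submodule.span K (Set.range e) with hW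
  have h1 := Cfsg.Agent.S0775.result (F := K) (q := 2) (by rw [← Nat.card_eq_fintype_card]; exact h2) n 2 hn W₀ hW₀.2
    (fun u hu v hv => by
      have h3 := hW₀.1.2 u hu v hv
      rw [spF_B_eq, neg_eq_zero] at h3
      exact h3)
  rw [← card_stab] at h1
  have h3 := (CForm.spF K n).card_iso_eq hW₀
  rw [card_iso h2, h1] at h3
  obtain ⟨t, rfl⟩ : ∃ t, n = t + 2 := ⟨n - 2, by omega⟩
  have e1 : A (t + 2) = A t * (2 ^ (2 * (t + 1)) - 1) * (2 ^ (2 * (t + 2)) - 1) := by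
    rw [A_succ, A_succ]
  have e2 : t + 2 - 2 = t := by omega
  rw [e2, e1] at h3
  have e3 : (∏ i ∈ Finset.range t, (2 ^ (2 * (i + 1)) - 1)) = A t := rfl
  rw [e3, Fin.prod_univ_two] at h3
  have e4 : 2 * (2 + 1) / 2 + 2 * 2 * t = 4 * t + 3 := by omega
  rw [e4] at h3
  have e5 : 2 * (t + 2) - 2 = 2 * (t + 1) := by omega
  rw [e5]
  have hA := A_pos t
  set N := Nat.card ((CForm.spF K (t + 2)).Om 2)
  set x := 2 ^ (2 * (t + 1)) - 1
  set y := 2 ^ (2 * (t + 2)) - 1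
  have e6 : (2 : ℕ) ^ (t + 2) ^ 2 = 2 ^ (t ^ 2) * 2 ^ (4 * t + 3) * 2 := by
    rw [← pow_add, ← pow_succ]
    congr 1
    ring
  rw [e6] at h3
  have e7 : (2 ^ (t ^ 2) * 2 ^ (4 * t + 3) * 2 * A t) * (3 * N) = (2 ^ (t ^ 2) * 2 ^ (4 * t + 3) * 2 * A t) * (x * y) := by
    have h4 : (2 ^ 2 - 2 ^ ((0 : Fin 2) : ℕ)) * (2 ^ 2 - 2 ^ ((1 : Fin 2) : ℕ)) = 6 := by norm_num
    rw [h4] at h3
    calc (2 ^ (t ^ 2) * 2 ^ (4 * t + 3) * 2 * A t) * (3 * N) = N * (2 ^ (4 * t + 3) * (2 ^ t ^ 2 * A t) * 6) := by ring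
      _ = 2 ^ t ^ 2 * 2 ^ (4 * t + 3) * 2 * (A t * x * y) := h3.symm
      _ = _ := by ring
  exact Nat.eq_of_mul_eq_mul_left (by positivity) e7

end

end Cfsg.Agent.H279.Dl
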